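import Mathlib
import Cfsg.Agent.Lib.Helper51.GL3.Defs

/-!
# S1906, package (T): evaluation of the transfer at a central involution (helper78)
-/

set_option autoImplicit false

universe u v

namespace Cfsg.Agent.Lib.Helper78.GL3

/-- `g` fixes the coset `aH` iff `a⁻¹ g a ∈ H`. -/
theorem smul_mk_eq_iff78 {G : Type u} [Group G] (H : Subgroup G) (g a : G) :
    g • (a : G ⧸ H) = (a : G ⧸ H) ↔ a⁻¹ * g * a ∈ H := by
  rw [MulAction.Quotient.smul_mk, eq_comm, QuotientGroup.eq, smul_eq_mul, mul_assoc]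

/-- A homomorphism to a commutative group is invariant under conjugation. -/
theorem mu_conj78 {G : Type u} [Group G] (H : Subgroup G) {M : Type v} [CommGroup M]
    (μ : ↥H →* M) (y e : G) (hy : y ∈ H) (he : e ∈ H) (h' : y⁻¹ * e * y ∈ H) :
    μ ⟨y⁻¹ * e * y, h'⟩ = μ ⟨e, he⟩ := by
  have : (⟨y⁻¹ * e * y, h'⟩ : ↥H) = (⟨y, hy⟩ : ↥H)⁻¹ * ⟨e, he⟩ * ⟨y, hy⟩ := Subtype.ext rfl
  rw [this, map_mul, map_mul, map_inv, mul_comm, mul_inv_cancel_left]

/-- The predicate "`a⁻¹ g a ∈ H` and `μ (a⁻¹ g a) = -1`". -/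
def QP78 {G : Type u} [Group G] (H : Subgroup G) {F : Type v} [Field F]
    (μ : ↥H →* Fˣ) (g a : G) : Prop :=
  ∃ h : a⁻¹ * g * a ∈ H, μ ⟨a⁻¹ * g * a, h⟩ = -1

theorem qp78_mul_right {G : Type u} [Group G] (H : Subgroup G) {F : Type v} [Field F]
    (μ : ↥H →* Fˣ) (g a y : G) (hy : y ∈ H) : QP78 H μ g (a * y) ↔ QP78 H μ g a := by
  have e : (a * y)⁻¹ * g * (a * y) = y⁻¹ * (a⁻¹ * g * a) * y := by group
  unfold QP78
  rw [e]
  constructor
  · rintro ⟨h, hm⟩
    have h' : a⁻¹ * g * a ∈ H := by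
      have := H.mul_mem (H.mul_mem hy h) (H.inv_mem hy)
      simpa [mul_assoc] using this
    exact ⟨h', by rw [← hm, mu_conj78 H μ y _ hy h' h]⟩
  · rintro ⟨h, hm⟩
    have h' : y⁻¹ * (a⁻¹ * g * a) * y ∈ H := H.mul_mem (H.mul_mem (H.inv_mem hy) h) hy
    exact ⟨h', by rw [← hm, mu_conj78 H μ y _ hy h h']⟩

theorem qp78_mul_left {G : Type u} [Group G] (H : Subgroup G) {F : Type v} [Field F]
    (μ : ↥H →* Fˣ) (g a x : G) (hx : x⁻¹ * g * x = g) : QP78 H μ g (x * a) ↔ QP78 H μ g a := by
  have e : (x * a)⁻¹ * g * (x * a) = a⁻¹ * g * a := by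
    calc (x * a)⁻¹ * g * (x * a) = a⁻¹ * (x⁻¹ * g * x) * a := by group
      _ = a⁻¹ * g * a := by rw [hx]
  unfold QP78
  rw [e]

theorem qp78_out {G : Type u} [Group G] (H : Subgroup G) {F : Type v} [Field F]
    (μ : ↥H →* Fˣ) (g a : G) : QP78 H μ g ((a : G ⧸ H).out) ↔ QP78 H μ g a := by
  obtain ⟨h, hh⟩ := QuotientGroup.mk_out_eq_mul H a
  rw [hh]
  exact qp78_mul_right H μ g a h h.2

/-- The factor of the transfer formula at an orbit. -/
theorem factor78 {G : Type u} [Group G] (H : Subgroup G) {F : Type v} [Field F]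
    (μ : ↥H →* Fˣ) (g : G) (hg2 : g ^ 2 = 1) (c : G ⧸ H)
    [Decidable (QP78 H μ g c.out)]
    (hmem : c.out⁻¹ * g ^ Function.minimalPeriod (g • ·) c * c.out ∈ H) :
    μ ⟨c.out⁻¹ * g ^ Function.minimalPeriod (g • ·) c * c.out, hmem⟩ =
      if QP78 H μ g c.out then -1 else 1 := by
  have hper : Function.IsPeriodicPt (g • ·) 2 c := by
    show (g • ·)^[2] c = c
    simp only [Function.iterate_succ, Function.iterate_zero, Function.comp_apply, id_eq]
    rw [smul_smul, ← sq, hg2, one_smul]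
  have hdvd := hper.minimalPeriod_dvd
  rcases (Nat.dvd_prime Nat.prime_two).mp hdvd with h1 | h2
  · have hfix : g • c = c := Function.minimalPeriod_eq_one_iff_isFixedPt.mp h1
    have hfix' : c.out⁻¹ * g * c.out ∈ H := by
      rw [← smul_mk_eq_iff78, QuotientGroup.out_eq']
      exact hfix
    have heq : (⟨c.out⁻¹ * g ^ Function.minimalPeriod (g • ·) c * c.out, hmem⟩ : ↥H)
        = ⟨c.out⁻¹ * g * c.out, hfix'⟩ := by
      apply Subtype.ext
      show c.out⁻¹ * g ^ Function.minimalPeriod (g • ·) c * c.out = c.out⁻¹ * g * c.out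
      rw [h1, pow_one]
    rw [heq]
    by_cases hQ : QP78 H μ g c.out
    · rw [if_pos hQ]
      obtain ⟨h, hm⟩ := hQ
      exact hm
    · rw [if_neg hQ]
      have hsq : μ ⟨c.out⁻¹ * g * c.out, hfix'⟩ * μ ⟨c.out⁻¹ * g * c.out, hfix'⟩ = 1 := by
        rw [← map_mul]
        have : (⟨c.out⁻¹ * g * c.out, hfix'⟩ : ↥H) * ⟨c.out⁻¹ * g * c.out, hfix'⟩ = 1 := by
          apply Subtype.ext
          show c.out⁻¹ * g * c.out * (c.out⁻¹ * g * c.out) = 1
          have : c.out⁻¹ * g * c.out * (c.out⁻¹ * g * c.out) = c.out⁻¹ * (g * g) * c.out := by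
            group
          rw [this, ← sq, hg2]
          group
        rw [this, map_one]
      have hsqF : ((μ ⟨c.out⁻¹ * g * c.out, hfix'⟩ : Fˣ) : F)
          * ((μ ⟨c.out⁻¹ * g * c.out, hfix'⟩ : Fˣ) : F) = 1 := by
        rw [← Units.val_mul, hsq, Units.val_one]
      rcases mul_self_eq_one_iff.mp hsqF with h | h
      · exact Units.ext h
      · exact absurd ⟨hfix', Units.ext (by rw [h]; simp)⟩ hQ
  · have hnf : ¬ g • c = c := by
      intro hfix
      have := Function.minimalPeriod_eq_one_iff_isFixedPt.mpr (show Function.IsFixedPt (g • ·) c from hfix)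
      omega
    have hQ : ¬ QP78 H μ g c.out := by
      rintro ⟨h, -⟩
      apply hnf
      have := (smul_mk_eq_iff78 H g c.out).mpr h
      rwa [QuotientGroup.out_eq'] at this
    rw [if_neg hQ]
    have heq : (⟨c.out⁻¹ * g ^ Function.minimalPeriod (g • ·) c * c.out, hmem⟩ : ↥H) = 1 := by
      apply Subtype.ext
      show c.out⁻¹ * g ^ Function.minimalPeriod (g • ·) c * c.out = 1
      rw [h2, hg2]
      simp
    rw [heq, map_one]

theorem lemTransferVal : Cfsg.Agent.Lib.Helper51.GL3.LemTransferVal.{u, v} := by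
  intro G _ _ X F _ μ u huZ hu2 hμ
  classical
  have hg2 : (u : G) ^ 2 = 1 := by
    have := congrArg (Subtype.val : ↥(X : Subgroup G) → G) hu2
    simpa using this
  have hcomm : ∀ x ∈ (X : Subgroup G), x⁻¹ * (u : G) * x = (u : G) := by
    intro x hx
    have h1 := Subgroup.mem_center_iff.mp huZ ⟨x, hx⟩
    have h2 := congrArg (Subtype.val : ↥(X : Subgroup G) → G) h1
    simp only [Subgroup.coe_mul] at h2
    rw [mul_assoc, ← h2, inv_mul_cancel_left]
  letI : Fintype (Quotient (MulAction.orbitRel (Subgroup.zpowers (u : G))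
      (G ⧸ (X : Subgroup G)))) := Fintype.ofFinite _
  letI : Fintype (G ⧸ (X : Subgroup G)) := Fintype.ofFinite _
  rw [MonoidHom.transfer_eq_prod_quotient_orbitRel_zpowers_quot μ (u : G)]
  rw [Finset.prod_congr rfl (fun q _ => factor78 (X : Subgroup G) μ (u : G) hg2 q.out _)]
  -- pass to a product over all cosets
  have hfixout : ∀ c : G ⧸ (X : Subgroup G), (u : G) • c = c →
      (Quotient.mk (MulAction.orbitRel (Subgroup.zpowers (u : G)) (G ⧸ (X : Subgroup G))) c).out
        = c := by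
    intro c hc
    have h1 := Quotient.exact (Quotient.out_eq
      (Quotient.mk (MulAction.orbitRel (Subgroup.zpowers (u : G)) (G ⧸ (X : Subgroup G))) c))
    have h2 : (Quotient.mk (MulAction.orbitRel (Subgroup.zpowers (u : G))
        (G ⧸ (X : Subgroup G))) c).out ∈ MulAction.orbit (Subgroup.zpowers (u : G)) c := h1
    obtain ⟨⟨z, hz⟩, hzc⟩ := h2
    obtain ⟨k, rfl⟩ := Subgroup.mem_zpowers_iff.mp hz
    rw [← hzc]
    show ((u : G) ^ k) • c = c
    have hstab : (u : G) ∈ MulAction.stabilizer G c := hc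
    exact (MulAction.stabilizer G c).zpow_mem hstab k
  rw [Fintype.prod_of_injective
    (fun q : Quotient (MulAction.orbitRel (Subgroup.zpowers (u : G)) (G ⧸ (X : Subgroup G))) =>
      q.out) (fun q₁ q₂ h => by
        have := congrArg (Quotient.mk (MulAction.orbitRel (Subgroup.zpowers (u : G))
          (G ⧸ (X : Subgroup G)))) h
        simpa using this) _
    (fun c : G ⧸ (X : Subgroup G) => if QP78 (X : Subgroup G) μ (u : G) c.out then (-1 : Fˣ) else 1)
    (by
      intro c hc
      have hQ : ¬ QP78 (X : Subgroup G) μ (u : G) c.out := by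
        rintro ⟨h, -⟩
        apply hc
        have := (smul_mk_eq_iff78 (X : Subgroup G) (u : G) c.out).mpr h
        rw [QuotientGroup.out_eq'] at this
        exact ⟨_, hfixout c this⟩
      rw [if_neg hQ])
    (fun q => rfl)]
  -- count
  rw [Finset.prod_ite, Finset.prod_const_one, mul_one, Finset.prod_const]
  apply Odd.neg_one_pow
  -- the invariant set
  let A : SubMulAction ↥(X : Subgroup G) (G ⧸ (X : Subgroup G)) :=
    { carrier := {c | QP78 (X : Subgroup G) μ (u : G) c.out}
      smul_mem' := by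
        intro x c hc
        induction c using QuotientGroup.induction_on with
        | H a =>
          have hc' : QP78 (X : Subgroup G) μ (u : G) a :=
            (qp78_out (X : Subgroup G) μ (u : G) a).mp hc
          show QP78 (X : Subgroup G) μ (u : G) ((((x : G) * a : G) : G ⧸ (X : Subgroup G))).out
          rw [qp78_out, qp78_mul_left _ _ _ _ _ (hcomm x x.2)]
          exact hc' }
  have hAfix : ∀ c : G ⧸ (X : Subgroup G),
      c ∈ MulAction.fixedPoints ↥(X : Subgroup G) (G ⧸ (X : Subgroup G)) → c ∈ A := by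
    intro c hc
    induction c using QuotientGroup.induction_on with
    | H a =>
      have ha : a ∈ Subgroup.normalizer ((X : Subgroup G) : Set G) :=
        Sylow.mem_fixedPoints_mul_left_cosets_iff_mem_normalizer.mp hc
      have ha1 : ∀ h, h ∈ (X : Subgroup G) ↔ a * h * a⁻¹ ∈ (X : Subgroup G) :=
        Subgroup.mem_normalizer_iff.mp ha
      have ha2 : ∀ h, h ∈ (X : Subgroup G) → a⁻¹ * h * a ∈ (X : Subgroup G) := by
        intro h hh
        rw [ha1]
        simpa [mul_assoc] using hh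
      let α : ↥(X : Subgroup G) ≃* ↥(X : Subgroup G) :=
        { toFun := fun x => ⟨a⁻¹ * x * a, ha2 x x.2⟩
          invFun := fun x => ⟨a * x * a⁻¹, (ha1 x).mp x.2⟩
          left_inv := fun x => Subtype.ext (by simp [mul_assoc])
          right_inv := fun x => Subtype.ext (by simp [mul_assoc])
          map_mul' := fun x y => Subtype.ext (by simp [mul_assoc]) }
      show QP78 (X : Subgroup G) μ (u : G) ((a : G ⧸ (X : Subgroup G))).out
      rw [qp78_out]
      exact ⟨ha2 u u.2, hμ α⟩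
  have hcardA : Nat.card ↥A = (Finset.univ.filter
      (fun c : G ⧸ (X : Subgroup G) => QP78 (X : Subgroup G) μ (u : G) c.out)).card := by
    rw [← Nat.card_eq_finsetCard]
    apply Nat.card_congr
    exact
      { toFun := fun c => ⟨c.1, Finset.mem_filter.mpr ⟨Finset.mem_univ _, c.2⟩⟩
        invFun := fun c => ⟨c.1, (Finset.mem_filter.mp c.2).2⟩
        left_inv := fun c => rfl
        right_inv := fun c => rfl }
  rw [← hcardA]
  have h1 := X.isPGroup'.card_modEq_card_fixedPoints ↥A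
  have h2 := X.isPGroup'.card_modEq_card_fixedPoints (G ⧸ (X : Subgroup G))
  have h3 : Nat.card (MulAction.fixedPoints ↥(X : Subgroup G) ↥A)
      = Nat.card (MulAction.fixedPoints ↥(X : Subgroup G) (G ⧸ (X : Subgroup G))) := by
    apply Nat.card_congr
    exact
      { toFun := fun c => ⟨c.1.1, fun x => congrArg Subtype.val (c.2 x)⟩
        invFun := fun c => ⟨⟨c.1, hAfix c.1 c.2⟩, fun x => Subtype.ext (c.2 x)⟩
        left_inv := fun c => rfl
        right_inv := fun c => rfl }
  have h4 : Nat.card ↥A ≡ Nat.card (G ⧸ (X : Subgroup G)) [MOD 2] := by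
    rw [h3] at h1
    exact h1.trans h2.symm
  have h5 : ¬ 2 ∣ (X : Subgroup G).index := X.not_dvd_index
  rw [Subgroup.index_eq_card] at h5
  rw [Nat.odd_iff]
  have h6 : Nat.card (G ⧸ (X : Subgroup G)) % 2 = 1 := by omega
  rw [← h6]
  exact h4

end Cfsg.Agent.Lib.Helper78.GL3
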